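import Cfsg.Agent.E7P.Base.EqU
import Cfsg.Agent.R2.H8.NoFix.Desc

/-!
# S5932, task TOP: leading terms and descent (helper71)

* `Top.Ld β e y z` : `z` is a leading term of `y` at the level `e`;
* `Top.core` : a Frobenius stable subgroup of `Ul β` whose fixed points form an "irreducible" group has only one level.
-/

set_option autoImplicit false
set_option maxRecDepth 100000

namespace Cfsg.Agent.E7P.Top

open Cfsg Cfsg.Lie Matrix Module
open Cfsg.Agent.H943.E7V.Block (D1 rho)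
open Cfsg.Agent.R2.T1 Cfsg.Agent.E7P.Kf
open Cfsg.Agent.R2.PX (del)
open Cfsg.Agent.R2.H8.NoFix

universe u v

variable {k : Type u} [Field k]

theorem del_map {K' : Type u} [Field K'] (f : k →+* K') (z : chevE7.Idx → k) :
    (del k z).map f = del K' fun i => f (z i) := by
  ext a b
  rw [map_apply, R2.PX.del_apply, R2.PX.del_apply, Matrix.add_apply, Matrix.add_apply, Matrix.sum_apply, Matrix.sum_apply,
    Matrix.sum_apply, Matrix.sum_apply, map_add, map_sum, map_sum]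
  congr 1
  · refine Finset.sum_congr rfl fun i _ => ?_
    rw [Matrix.smul_apply, Matrix.smul_apply, smul_eq_mul, smul_eq_mul, map_mul]
    congr 1
    show f (diagonal _ a b) = diagonal _ a b
    rw [diagonal_apply, diagonal_apply, apply_ite f, map_intCast, map_zero]
  · refine Finset.sum_congr rfl fun s _ => ?_
    rw [Matrix.smul_apply, Matrix.smul_apply, smul_eq_mul, smul_eq_mul, map_mul]
    congr 1
    exact map_intCast f _

/-- `z` is a leading term of `y` at the level `e` -/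
def Ld (β : E) (e : ℝ) (y : Gh k) (z : chevE7.Idx → k) : Prop := rho k y - 1 - del k z ∈ MGt k β e

variable {β : E} {d e : ℝ} {x y : Gh k} {z z' : chevE7.Idx → k}

theorem Ld.mge (h : Ld β e y z) (hz : z ∈ Ge k ac β e) : rho k y - 1 ∈ MGe k β e := by
  have h1 := add_mem (MGt_le h) (del_mem_MGe hz)
  rwa [sub_add_cancel] at h1

theorem Ld.sub (h : Ld β e y z) (h' : Ld β e y z') : z - z' ∈ Gt k ac β e := by
  refine mem_Gt_of_del ?_
  have h1 := sub_mem h' h
  rwa [sub_sub_sub_cancel_left, ← map_sub] at h1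

theorem Ld.unique (h : Ld β e y z) (h' : Ld β e y z') (hz : z ∈ Lv k ac β e) (hz' : z' ∈ Lv k ac β e) : z = z' :=
  sub_eq_zero.1 (eq_zero_of_Lv_Gt (sub_mem hz hz') (h.sub h'))

theorem Ld.congr (h : Ld β e y z) (h' : z - z' ∈ Gt k ac β e) : Ld β e y z' := by
  have h1 := add_mem h (del_mem_MGt h')
  rwa [map_sub, sub_add_sub_cancel] at h1

theorem ld_zero : Ld β e y 0 ↔ rho k y - 1 ∈ MGt k β e := by rw [Ld, map_zero, sub_zero]

theorem Ld.inv_mul (hx : x ∈ Pl k β) (h : Ld β e x z) (h' : Ld β e y z) : rho k (x⁻¹ * y) - 1 ∈ MGt k β e := by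
  have h1 := MGe_mul_MGt (rho_mem_MGe (inv_mem hx)) (sub_mem h' h)
  rwa [zero_add, sub_sub_sub_cancel_right, sub_sub_sub_cancel_right, mul_sub, ← map_mul, ← map_mul, inv_mul_cancel,
    map_one] at h1

theorem Ld.frob (s : k →+* k) (h : Ld β e y z) : Ld β e (emb s y) fun i => s (z i) := by
  intro i j hij
  refine h i j fun h0 => hij ?_
  rw [rho_emb, ← del_map, Matrix.sub_apply, Matrix.sub_apply, map_apply, map_apply]
  have h1 := congrArg s h0
  rwa [Matrix.sub_apply, Matrix.sub_apply, map_sub, map_sub, map_zero, one_apply, apply_ite s, map_one, map_zero,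
    ← one_apply] at h1

theorem frob_Lv (s : k →+* k) (hz : z ∈ Lv k ac β e) : (fun i => s (z i)) ∈ Lv k ac β e := fun i hi =>
  hz i fun h0 => hi ((congrArg s h0).trans (map_zero s))

theorem Ld.conj (h2 : (2 : k) ≠ 0) {m : Gh k} (hm : m ∈ Pl k β) (h : Ld β e y z) :
    Ld β e (m * y * m⁻¹) (adM k m *ᵥ z) := by
  have h1 := MGt_conj hm h
  rwa [mul_sub, sub_mul, mul_sub, sub_mul, mul_one, ← map_mul, ← map_mul, ← map_mul, mul_inv_cancel, map_one,
    R2.PX.del_equi h2, mul_assoc (del k _), ← map_mul, mul_inv_cancel, map_one, mul_one] at h1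

/-- the unipotent radical does not change the leading terms -/
theorem Ld.conj_Ul (hx : x ∈ Ul k β) (h : Ld β e y z) (hz : z ∈ Ge k ac β e) : Ld β e (x * y * x⁻¹) z := by
  have h1 := MGt_conj hx.1 h
  have h3 := del_mem_MGe hz
  have h4 := MGt_mul (MGt_mul (STri_iff.1 hx.2) h3) (rho_mem_MGe (inv_mem hx.1))
  have h5 := MGe_mul_MGt h3 (STri_iff.1 (inv_mem hx).2)
  rw [zero_add, add_zero] at h4
  rw [add_zero] at h5
  have h6 := add_mem (add_mem h1 h4) h5
  have h7 : rho k x * rho k x⁻¹ = 1 := by rw [← map_mul, mul_inv_cancel, map_one]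
  rwa [show rho k x * (rho k y - 1 - del k z) * rho k x⁻¹ + (rho k x - 1) * del k z * rho k x⁻¹ +
    del k z * (rho k x⁻¹ - 1) = rho k x * rho k y * rho k x⁻¹ - rho k x * rho k x⁻¹ - del k z by noncomm_ring, h7,
    ← map_mul, ← map_mul] at h6

/-- the exact level -/
theorem exists_level (hy : y ∈ Ul k β) (h1 : y ≠ 1) : ∃ e, 0 < e ∧ ∃ z ∈ Lv k ac β e, z ≠ 0 ∧ Ld β e y z := by
  classical
  have hne : (Finset.univ.filter fun x : D1 × D1 => (rho k y - 1) x.1 x.2 ≠ 0).Nonempty := by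
    by_contra h0
    rw [Finset.not_nonempty_iff_eq_empty, Finset.filter_eq_empty_iff] at h0
    refine h1 (rho_injective ?_)
    rw [map_one, ← sub_eq_zero]
    ext i j
    exact not_not.1 (h0 (Finset.mem_univ (i, j)))
  obtain ⟨x, hx, hmin⟩ := Finset.exists_min_image _ (fun x : D1 × D1 => bf β (wv x.1) - bf β (wv x.2)) hne
  have hx1 := (Finset.mem_filter.1 hx).2
  have he : 0 < bf β (wv x.1) - bf β (wv x.2) := sub_pos.2 (hy.2 _ _ hx1)
  obtain ⟨z, hz, h2⟩ := leadu he hy fun i j hij => by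
    have h3 := hmin (i, j) (Finset.mem_filter.2 ⟨Finset.mem_univ _, hij⟩)
    linarith
  refine ⟨_, he, z, hz, ?_, h2⟩
  rintro rfl
  have h3 := ld_zero.1 h2 _ _ hx1
  linarith

theorem Ld.lt (h : Ld β e y z) (hz : z ∈ Lv k ac β e) (h0 : z ≠ 0) (h' : rho k y - 1 ∈ MGt k β d) : d < e := by
  by_contra hle
  exact h0 (h.unique (ld_zero.2 (MGt_mono (not_lt.1 hle) h')) hz (zero_mem _))

/-- every leading term occurs, in a given subgroup -/
theorem exists_ld (hd : 0 < d) (hz : z ∈ Ge k ac β d) {T : Subgroup (Gh k)}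
    (hT : ∀ r : Fin chevE7.nroots, z (Sum.inr r) ≠ 0 → ∀ t, xs k r t ∈ T) : ∃ y ∈ T, Ld β d y z := by
  classical
  have key : ∀ s : Finset chevE7.Idx, ∃ y ∈ T, (∑ i ∈ s, Pi.single i (z i) : chevE7.Idx → k) ∈ Ge k ac β d ∧
      Ld β d y (∑ i ∈ s, Pi.single i (z i)) := by
    intro s
    induction s using Finset.induction_on with
    | empty =>
      refine ⟨1, one_mem _, ?_, ?_⟩
      · rw [Finset.sum_empty]; exact zero_mem _
      · rw [Finset.sum_empty, ld_zero, map_one, sub_self]; exact zero_mem _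
    | insert i s hi ih =>
      obtain ⟨y, hy, h1, h2⟩ := ih
      rw [Finset.sum_insert hi]
      by_cases h0 : z i = 0
      · rw [h0, Pi.single_zero, zero_add]
        exact ⟨y, hy, h1, h2⟩
      have h3 := hz i h0
      rcases i with i | ⟨r, hr⟩
      · rw [ac_inl, cv_zero, map_zero] at h3
        exact absurd hd (not_lt.2 h3)
      have h4 : (Pi.single (Sum.inr ⟨r, hr⟩) (z (Sum.inr ⟨r, hr⟩)) : chevE7.Idx → k) ∈ Ge k ac β d :=
        fun j hj => h3.trans (single_mem_Lv hr _ j hj).ge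
      exact ⟨_, mul_mem (hT ⟨r, hr⟩ h0 _) hy, add_mem h4 h1,
        lead_mul hd h4 h1 (by rw [lead_xs hr]; exact zero_mem _) h2⟩
  obtain ⟨y, hy, -, h⟩ := key Finset.univ
  rw [Finset.univ_sum_single] at h
  exact ⟨y, hy, h⟩

section
variable {F : Type u} [Field F] [Fintype F] (f : F →+* k) {s : k →+* k} (hs : ∀ x, s x = x ^ Fintype.card F)
include hs

include f in
/-- the map `z ↦ z - s z` is onto -/
theorem exists_sub [IsAlgClosed k] {n : Type} [Fintype n] [DecidableEq n] {Y : Submodule k (n → k)}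
    (hY : ∀ y ∈ Y, (fun i => s (y i)) ∈ Y) {w : n → k} (hw : w ∈ Y) : ∃ z ∈ Y, w = z - fun i => s (z i) := by
  have h1 : ∀ c : k, ∃ x, c = x - s x := fun c => by
    obtain ⟨x, hx⟩ := IsAlgClosed.exists_root (Polynomial.X ^ Fintype.card F - Polynomial.X + Polynomial.C c) (by
      have h1 : 1 < Fintype.card F := Fintype.one_lt_card
      have h2 := FiniteField.X_pow_card_sub_X_natDegree_eq k h1
      intro h0
      have h3 := Polynomial.natDegree_eq_zero_iff_degree_le_zero.2 h0.le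
      rw [Polynomial.natDegree_add_C, h2] at h3
      omega)
    refine ⟨x, ?_⟩
    rw [Polynomial.IsRoot.def, Polynomial.eval_add, Polynomial.eval_sub, Polynomial.eval_pow, Polynomial.eval_X,
      Polynomial.eval_C] at hx
    rw [hs]
    linear_combination hx
  have key : ∀ w ∈ H65.E6Emb.ext f (Desc.rat f Y), ∀ c : k, ∃ z ∈ Y, c • w = z - fun i => s (z i) := by
    intro w hw
    unfold H65.E6Emb.ext at hw
    induction hw using Submodule.span_induction with
    | mem y hy =>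
      obtain ⟨v, hv, rfl⟩ := hy
      intro c
      obtain ⟨x, rfl⟩ := h1 c
      refine ⟨_, Y.smul_mem x hv, funext fun i => ?_⟩
      show (x - s x) * f (v i) = x * f (v i) - s (x * f (v i))
      rw [map_mul, hs (f _), ← map_pow, FiniteField.pow_card, sub_mul]
    | zero => exact fun c => ⟨0, zero_mem _, funext fun i => by simp⟩
    | add a b _ _ ha hb =>
      intro c
      obtain ⟨z, hz, e1⟩ := ha c
      obtain ⟨z', hz', e2⟩ := hb c
      refine ⟨z + z', add_mem hz hz', ?_⟩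
      rw [smul_add, e1, e2]
      funext i
      simp only [Pi.add_apply, Pi.sub_apply, map_add]
      ring
    | smul c a _ ha =>
      intro c'
      rw [smul_smul]
      exact ha _
  have h2 := key w (by rwa [Desc.ext_rat f hs hY]) 1
  rwa [one_smul] at h2

include f in
/-- **the core of TOP** -/
theorem core [IsAlgClosed k] {Q : Subgroup (Gh k)} (hQ : Q ≤ Ul k β) (hσ : ∀ y ∈ Q, emb s y ∈ Q)
    (Y : ℝ → Submodule k (chevE7.Idx → k)) (hY : ∀ e, Y e ≤ Lv k ac β e)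
    (h1 : ∀ e, 0 < e → ∀ y ∈ Q, ∀ z ∈ Lv k ac β e, Ld β e y z → z ∈ Y e)
    (h2 : ∀ e, 0 < e → ∀ z ∈ Y e, ∃ y ∈ Q, Ld β e y z) {K : Type v} (u : K → Gh k) (hu : Function.Injective u)
    (hfix : ∀ y, (y ∈ Q ∧ emb s y = y) ↔ ∃ t, y = u t) (hne : ∃ t, u t ≠ 1)
    (hirr : ∀ d, 0 < d → ∀ t, u t ≠ 1 → u t ∈ Ud k β d → ∀ t, u t ∈ Ud k β d) :
    ∃ d, 0 < d ∧ (∀ e, 0 < e → Y e ≠ ⊥ → e = d) ∧ Nat.card K = Fintype.card F ^ finrank k (Y d) := by
  classical
  have hYs : ∀ e, 0 < e → ∀ z ∈ Y e, (fun i => s (z i)) ∈ Y e := fun e he z hz => by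
    obtain ⟨y, hy, h3⟩ := h2 e he z hz
    exact h1 e he _ (hσ y hy) _ (frob_Lv s (hY e hz)) (h3.frob s)
  have hfin : {e | 0 < e ∧ Y e ≠ ⊥}.Finite := by
    refine (Set.finite_range fun i => bf β (cv (ac i))).subset fun e he => ?_
    obtain ⟨z, hz, h0⟩ := Submodule.exists_mem_ne_zero_of_ne_bot he.2
    obtain ⟨i, hi⟩ := Function.ne_iff.1 h0
    exact ⟨i, hY e hz i hi⟩
  have hlev : ∀ y ∈ Q, y ≠ 1 → ∃ e, (0 < e ∧ Y e ≠ ⊥) ∧ ∃ z ∈ Lv k ac β e, z ≠ 0 ∧ Ld β e y z := fun y hy hy1 => by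
    obtain ⟨e, he, z, hz, h0, h3⟩ := exists_level (hQ hy) hy1
    exact ⟨e, ⟨he, (Submodule.ne_bot_iff _).2 ⟨z, h1 e he y hy z hz h3, h0⟩⟩, z, hz, h0, h3⟩
  have huQ : ∀ t, u t ∈ Q ∧ emb s (u t) = u t := fun t => (hfix _).2 ⟨t, rfl⟩
  obtain ⟨d, ⟨hd, hd0⟩, hmax⟩ : ∃ d ∈ {e | 0 < e ∧ Y e ≠ ⊥}, ∀ e ∈ {e | 0 < e ∧ Y e ≠ ⊥}, e ≤ d := by
    obtain ⟨t, ht⟩ := hne
    obtain ⟨e, he, -⟩ := hlev _ (huQ t).1 ht
    exact Set.exists_max_image _ id hfin ⟨e, he⟩
  have hinj : ∀ x ∈ Q, ∀ y ∈ Q, ∀ z, Ld β d x z → Ld β d y z → x = y := fun x hx y hy z h3 h4 => by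
    by_contra hxy
    obtain ⟨e, he, z', hz', h0, h5⟩ := hlev _ (mul_mem (inv_mem hx) hy) fun h => hxy (inv_mul_eq_one.1 h)
    exact not_lt.2 (hmax e he) (h5.lt hz' h0 (h3.inv_mul (hQ hx).1 h4))
  have hrat : ∀ v : chevE7.Idx → F, (fun i => s (f (v i))) = fun i => f (v i) := fun v => funext fun i => by
    rw [hs, ← map_pow, FiniteField.pow_card]
  have htop : ∀ v : chevE7.Idx → F, (fun i => f (v i)) ∈ Y d → ∃ t, Ld β d (u t) fun i => f (v i) := fun v hv => by
    obtain ⟨y, hy, h3⟩ := h2 d hd _ hv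
    have h4 := h3.frob s
    rw [hrat] at h4
    obtain ⟨t, rfl⟩ := (hfix y).1 ⟨hy, hinj _ (hσ y hy) _ hy _ h4 h3⟩
    exact ⟨t, h3⟩
  have hud : ∀ t, rho k (u t) - 1 ∈ MGe k β d := by
    obtain ⟨v, hv0, hv⟩ := Desc.exists_rational f hs (hYs d hd) hd0
    obtain ⟨t, ht⟩ := htop v hv
    intro t'
    refine Ud_MGe hd.le (hirr d hd t (fun h => hv0 ?_) (mem_Ud_of_MGe (hQ (huQ t).1) (ht.mge (Lv_le_Ge (hY d hv)))) t')
    have h3 := ht.unique (ld_zero.2 (by rw [h, map_one, sub_self]; exact zero_mem _)) (hY d hv) (zero_mem _)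
    exact funext fun i => f.injective ((congrFun h3 i).trans (map_zero f).symm)
  refine ⟨d, hd, ?_, ?_⟩
  · by_contra hcon
    push Not at hcon
    obtain ⟨e, ⟨⟨he, he0⟩, hed⟩, hmax'⟩ : ∃ e ∈ {e | (0 < e ∧ Y e ≠ ⊥) ∧ e < d},
        ∀ e' ∈ {e | (0 < e ∧ Y e ≠ ⊥) ∧ e < d}, e' ≤ e := by
      obtain ⟨e, h3, h4, h5⟩ := hcon
      exact Set.exists_max_image _ id (hfin.subset fun _ h => h.1) ⟨e, ⟨h3, h4⟩, (hmax e ⟨h3, h4⟩).lt_of_ne h5⟩
    obtain ⟨v, hv0, hv⟩ := Desc.exists_rational f hs (hYs e he) he0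
    obtain ⟨y, hy, h3⟩ := h2 e he _ hv
    have h4 := h3.frob s
    rw [hrat] at h4
    have h5 := h3.inv_mul (hQ hy).1 h4
    have hx := mul_mem (inv_mem hy) (hσ y hy)
    obtain ⟨w, hw, h6⟩ : ∃ w ∈ Y d, Ld β d (y⁻¹ * emb s y) w := by
      by_cases h6 : y⁻¹ * emb s y = 1
      · exact ⟨0, zero_mem _, ld_zero.2 (by rw [h6, map_one, sub_self]; exact zero_mem _)⟩
      obtain ⟨e', he', z', hz', h0, h7⟩ := hlev _ hx h6
      have h8 : e' = d := by
        by_contra h8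
        exact not_lt.2 (hmax' e' ⟨he', (hmax e' he').lt_of_ne h8⟩) (h7.lt hz' h0 h5)
      subst h8
      exact ⟨z', h1 _ hd _ hx _ hz' h7, h7⟩
    obtain ⟨z', hz', rfl⟩ := exists_sub f hs (hYs d hd) hw
    obtain ⟨x, hx', h7⟩ := h2 d hd _ hz'
    have h8 := lead_mul hd (Lv_le_Ge (hY d hw)) (Lv_le_Ge (hY d (hYs d hd _ hz'))) h6 (h7.frob s)
    rw [sub_add_cancel] at h8
    have h9 := hinj _ (mul_mem hx (hσ x hx')) _ hx' _ h8 h7
    obtain ⟨t, ht⟩ := (hfix (y * x)).1 ⟨mul_mem hy hx', by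
      rw [map_mul]
      nth_rewrite 2 [← h9]
      group⟩
    have h10 := lead_mul he (Lv_le_Ge (hY e hv)) (zero_mem _) h3
      (ld_zero.2 (MGe_le_MGt hed (h7.mge (Lv_le_Ge (hY d hz')))))
    rw [add_zero, ht] at h10
    have h11 := Ld.unique h10 (ld_zero.2 (MGe_le_MGt hed (hud t))) (hY e hv) (zero_mem _)
    exact hv0 (funext fun i => f.injective ((congrFun h11 i).trans (map_zero f).symm))
  · rw [← Desc.finrank_rat f hs (hYs d hd), ← Nat.card_eq_fintype_card, ← Module.natCard_eq_pow_finrank]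
    choose φ hφ using htop
    refine (Nat.card_eq_of_bijective (fun v : Desc.rat f (Y d) => φ v v.2) ⟨fun v v' h => ?_, fun t => ?_⟩).symm
    · have h3 := hφ v v.2
      rw [show φ v v.2 = φ v' v'.2 from h] at h3
      have h4 := h3.unique (hφ v' v'.2) (hY d v.2) (hY d v'.2)
      exact Subtype.ext (funext fun i => f.injective (congrFun h4 i))
    · obtain ⟨z, hz, h3⟩ := leadu hd (hQ (huQ t).1) (hud t)
      have h4 := Ld.frob s h3
      rw [(huQ t).2] at h4
      have h5 := h4.unique h3 (frob_Lv s hz) hz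
      choose v hv using fun i => H65.E6Emb.mem_range_of_pow f (by rw [← hs]; exact congrFun h5 i :
        z i ^ Fintype.card F = z i)
      have h6 : (fun i => f (v i)) = z := funext hv
      have h7 : (fun i => f (v i)) ∈ Y d := h6 ▸ h1 d hd _ (huQ t).1 z hz h3
      refine ⟨⟨v, h7⟩, hu (hinj _ (huQ _).1 _ (huQ _).1 z ?_ h3)⟩
      have h8 := hφ v h7
      rwa [h6] at h8

end

end Cfsg.Agent.E7P.Top
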