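import Cfsg.Agent.E7P.Top.Core

/-!
# S5932, task TOP (helper71)

`Sit.top : p ≠ 2 → S.TOP`.
-/

set_option autoImplicit false
set_option maxRecDepth 100000

namespace Cfsg.Agent.E7P

open Cfsg Cfsg.Lie Matrix Module
open Cfsg.Agent.H943.E7V.Block (D1 rho)
open Cfsg.Agent.R2.T1 Cfsg.Agent.E7P.Kf
open Cfsg.Agent.R2.PX (del)
open Cfsg.Agent.H943.SL2Rel (u w h)

universe u v

namespace Top

variable {k : Type u} [Field k]

theorem levi_Lv {β : E} {e : ℝ} {m : Gh k} (hm : m ∈ Pl k β ⊓ Pl k (-β)) {z : chevE7.Idx → k} (hz : z ∈ Lv k ac β e) :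
    adM k m *ᵥ z ∈ Lv k ac β e := by
  intro i hi
  have h1 := wrep_L.Ge_stab hm.1 (Lv_le_Ge hz) i hi
  have h2 := wrep_L.Ge_stab hm.2 (d := -e) (x := z) (fun j hj => by
    rw [map_neg, LinearMap.neg_apply, hz j hj]) i hi
  rw [map_neg, LinearMap.neg_apply] at h2
  linarith

theorem center_of_comm {c : Gh k} (hc : ∀ r < 126, xs k r 1 * c = c * xs k r 1) : c ∈ Subgroup.center (Gh k) := by
  rw [Subgroup.mem_center_iff]
  intro y
  refine (mem_of_gens (S := Subgroup.centralizer {c}) (fun r hr t => ?_) y c rfl).symm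
  rintro _ rfl
  apply rho_injective
  have h1 := congrArg (rho k) (hc r hr)
  rw [map_mul, map_mul, rho_xs' hr, one_smul, add_mul, mul_add, one_mul, mul_one, add_right_inj] at h1
  rw [map_mul, map_mul, rho_xs' hr, add_mul, mul_add, one_mul, mul_one, smul_mul_assoc, h1, mul_smul_comm]

theorem rtv_neg {r : ℕ} (hr : r < 126) (t : Fin chevE7.rank → kˣ) : rtv (125 - r) t = (rtv r t)⁻¹ := by
  show ch (rc (125 - r)) t = (ch (rc r) t)⁻¹
  rw [rc_neg hr, ch_neg]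

theorem ncard_inr (P : ℕ → Prop) [DecidablePred P] :
    (Sum.inr '' {r : Fin chevE7.nroots | P r} : Set chevE7.Idx).ncard = ((Finset.range 126).filter P).card := by
  rw [Set.ncard_image_of_injective _ Sum.inr_injective, ← Set.ncard_image_of_injective _ Fin.val_injective,
    ← Set.ncard_coe_finset]
  congr 1
  ext r
  rw [Finset.mem_coe, Finset.mem_filter, Finset.mem_range]
  exact ⟨fun ⟨s, hs, e⟩ => e ▸ ⟨s.2, hs⟩, fun hr => ⟨⟨r, hr.1⟩, hr.2, rfl⟩⟩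

end Top

namespace Sit

open Cfsg.Agent.E7P.Top

variable {p a b : ℕ} {F : Type u} {K : Type v} {k : Type u} [Field F] [Fintype F] [Field K] [Fintype K] [Field k]
  (S : Sit p a b F K k)

include S in
theorem top_two (hp : p ≠ 2) : (2 : k) ≠ 0 := by
  have := S.chark
  intro h2
  exact hp ((Nat.prime_dvd_prime_iff_eq S.prime Nat.prime_two).1 ((CharP.cast_eq_zero_iff k p 2).1 (by exact_mod_cast h2)))

/-- the Frobenius map is surjective on stable subgroups -/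
theorem top_σ_surj {C : Subgroup (Gh k)} (hσ : ∀ c ∈ C, S.σ c ∈ C) {c : Gh k} (hc : c ∈ C) : ∃ c' ∈ C, c = S.σ c' := by
  obtain ⟨N, hN, h1⟩ := S.k_exists_pow (Set.finite_singleton c)
  have h2 : ∀ n, S.σ^[n] c ∈ C := fun n => by
    induction n with
    | zero => exact hc
    | succ n ih => rw [Function.iterate_succ_apply']; exact hσ _ ih
  refine ⟨_, h2 (N - 1), ?_⟩
  rw [← Function.iterate_succ_apply' S.σ, show (N - 1).succ = N by omega, S.k_σ_pow, h1 c rfl]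

/-- **TOP** -/
theorem top (hp : p ≠ 2) : S.TOP := by
  classical
  intro C g γ hT hσ hM hA ⟨c0, hc0, hc0'⟩ hg hh hu
  have := S.closed
  have := S.chark
  have h2 := S.top_two hp
  obtain ⟨y0, hy0, z0, hz0, e0⟩ := lang_Pl S.prime S.hb S.k_frob hg
  obtain ⟨l, hl, x, hx, e1⟩ := Pl_levi hy0
  rw [← Ul_eq] at hx
  obtain ⟨g', hg'⟩ : ∃ g', g' = g * y0 := ⟨_, rfl⟩
  rw [← hg'] at e0
  have hσg : ∀ y, S.σ (g' * y * g'⁻¹) = g' * emb S.s y * g'⁻¹ := fun y => by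
    show emb S.s _ = _
    rw [map_mul, map_mul, map_inv, e0, mul_assoc g' z0, ← Subgroup.mem_center_iff.1 hz0]
    group
  let D := Subgroup.centralizer (C : Set (Gh k))
  have hDM : ∀ m ∈ S.M, ∀ y ∈ D, m * y * m⁻¹ ∈ D := fun m hm y hy c hc => by
    have h1 := hy _ (hM _ (inv_mem hm) c hc)
    calc _ = m * (m⁻¹ * c * m⁻¹⁻¹ * y) * m⁻¹ := by group
      _ = _ := by rw [h1]; group
  have hDσ : ∀ y ∈ D, S.σ y ∈ D := fun y hy c hc => by
    obtain ⟨c', hc', rfl⟩ := S.top_σ_surj hσ hc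
    rw [← map_mul, hy c' hc', map_mul]
  have hDA : ∀ x, S.ψ x ∈ D := fun x c hc => (hA c hc x).symm
  have hfixM : ∀ y ∈ D, S.σ y = y → y ∈ S.M := (S.fix_le_M hDM).resolve_right fun h1 =>
    hc0' (center_of_comm fun r _ => by
      have h3 := h1 (xs F r 1) c0 hc0
      rw [emb_xs, map_one] at h3
      exact h3.symm)
  have hh' : ∀ c, g'⁻¹ * S.ψ (h c) * g' ∈ Pl k γ := fun c => by
    rw [show g'⁻¹ * S.ψ (h c) * g' = y0⁻¹ * (g⁻¹ * S.ψ (h c) * g) * y0 by rw [hg']; group]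
    exact mul_mem (mul_mem (inv_mem hy0) (hh c)) hy0
  have hu' : ∀ t, g'⁻¹ * S.ψ (u t) * g' ∈ Ul k γ := fun t => by
    rw [show g'⁻¹ * S.ψ (u t) * g' = y0⁻¹ * (g⁻¹ * S.ψ (u t) * g) * y0⁻¹⁻¹ by rw [hg']; group]
    exact Ul_conj (inv_mem hy0) (hu t)
  let Q : Subgroup (Gh k) := Ul k γ ⊓ D.comap (MulAut.conj g').toMonoidHom
  have hQ : ∀ y, y ∈ Q ↔ y ∈ Ul k γ ∧ g' * y * g'⁻¹ ∈ D := fun y => Iff.rfl
  have hU : ∀ y, y ∈ Ul k γ → g' * y * g'⁻¹ ∈ D → emb S.s y = y → g' * y * g'⁻¹ ∈ S.U := by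
    let Q' : Subgroup (Gh k) := (Ul k γ).comap (MulAut.conj g'⁻¹).toMonoidHom ⊓ (D ⊓ S.σ.eqLocus (MonoidHom.id _))
    have hQ' : ∀ y, y ∈ Q' ↔ g'⁻¹ * y * g'⁻¹⁻¹ ∈ Ul k γ ∧ y ∈ D ∧ S.σ y = y := fun y => Iff.rfl
    have h1 : Q' = S.U := S.eq_U
      (((isPGroup_Ul S.prime γ).comap_of_injective _ (MulAut.conj g'⁻¹).injective).to_le inf_le_left)
      (fun y hy => hfixM y hy.2.1 hy.2.2)
      (by
        rintro _ ⟨t, rfl⟩
        exact (hQ' _).2 ⟨by rw [inv_inv]; exact hu' t, hDA _, S.k_σ_ψ _⟩)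
      (fun c y hy => by
        obtain ⟨h3, h4, h5⟩ := (hQ' y).1 hy
        refine (hQ' _).2 ⟨?_, hDM _ (S.k_ψ_mem _) y h4, by rw [map_mul, map_mul, map_inv, S.k_σ_ψ, h5]⟩
        have h6 := Ul_conj (hh' c) h3
        rwa [show g'⁻¹ * S.ψ (h c) * g' * (g'⁻¹ * y * g'⁻¹⁻¹) * (g'⁻¹ * S.ψ (h c) * g')⁻¹ =
          g'⁻¹ * (S.ψ (h c) * y * (S.ψ (h c))⁻¹) * g'⁻¹⁻¹ by group] at h6)
    intro y h3 h4 h5
    rw [← h1]
    refine (hQ' _).2 ⟨?_, h4, by rw [hσg, h5]⟩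
    rwa [show g'⁻¹ * (g' * y * g'⁻¹) * g'⁻¹⁻¹ = y by group]
  let Z : ℝ → Submodule k (chevE7.Idx → k) := fun e =>
    Pi.spanSubset k (Sum.inr '' {r : Fin chevE7.nroots | Psi C g r ∧ bf γ (rv r) = e})
  have hZ1 : ∀ e, ∀ z ∈ Z e, ∀ i, z i ≠ 0 → ∃ r : Fin chevE7.nroots, (Psi C g r ∧ bf γ (rv r) = e) ∧ Sum.inr r = i :=
    fun e z hz i hi => by
      by_contra hcon
      exact hi (Pi.mem_spanSubset_iff.1 hz i hcon)
  have hZ2 : ∀ e, Z e ≤ Lv k ac γ e := fun e z hz i hi => by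
    obtain ⟨r, hr, rfl⟩ := hZ1 e z hz i hi
    exact hr.2
  have hYZ : ∀ e, finrank k ((Z e).map (toLin' (adM k l⁻¹))) =
      ((Finset.range 126).filter fun r => Psi C g r ∧ bf γ (rv r) = e).card := fun e => by
    rw [← (Submodule.equivMapOfInjective (toLin' (adM k l⁻¹)) (Function.LeftInverse.injective
      (g := fun z => adM k l *ᵥ z) fun z => mulVec_inv' _ l z) (Z e)).finrank_eq, Pi.dim_spanSubset]
    exact ncard_inr fun r => Psi C g r ∧ bf γ (rv r) = e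
  obtain ⟨d, hd, h3, h4⟩ := Top.core S.f (s := S.s) (fun x => by rw [S.frob, Nat.card_eq_fintype_card]) (β := γ) (Q := Q)
    inf_le_left
    (fun y hy => (hQ _).2 ⟨⟨emb_mem_Pl S.s hy.1.1, STri_iff.2 (by
        have h3 := (ld_zero.2 (STri_iff.1 hy.1.2)).frob S.s
        rw [show (fun i => S.s ((0 : chevE7.Idx → k) i)) = 0 from funext fun _ => map_zero _] at h3
        exact ld_zero.1 h3)⟩, by rw [← hσg]; exact hDσ _ hy.2⟩)
    (fun e => (Z e).map (toLin' (adM k l⁻¹)))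
    (by
      rintro e _ ⟨z, hz, rfl⟩
      exact levi_Lv (inv_mem hl) (hZ2 e hz))
    (fun e he y hy z hz h3 => by
      have h4 := (h3.conj_Ul hx (Lv_le_Ge hz)).conj h2 hl.1
      have h5 := levi_Lv hl hz
      refine ⟨adM k l *ᵥ z, Pi.mem_spanSubset_iff.2 fun i hi => ?_, mulVec_inv _ l z⟩
      by_contra h0
      have h6 := h5 i h0
      rcases i with i | r
      · rw [ac_inl, cv_zero, map_zero] at h6
        exact he.ne h6
      refine hi ⟨r, ⟨fun t ht => ?_, h6⟩, rfl⟩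
      have h7 := h4.conj h2 (Phi_mem_Pl γ t)
      have h8 : Phi k t * (l * (x * y * x⁻¹) * l⁻¹) * (Phi k t)⁻¹ = l * (x * y * x⁻¹) * l⁻¹ := by
        have h9 := ((hQ y).1 hy).2 _ ht
        rw [hg', e1] at h9
        calc _ = g⁻¹ * (g * Phi k t * g⁻¹ * (g * (l * x) * y * (g * (l * x))⁻¹)) * g * (Phi k t)⁻¹ := by group
          _ = _ := by rw [h9]; group
      rw [h8] at h7
      have h9 := congrFun (h7.unique h4 (levi_Lv ⟨Phi_mem_Pl _ t, Phi_mem_Pl _ t⟩ h5) h5) (Sum.inr r)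
      rw [wrep_L.tor, mulVec_diagonal] at h9
      exact Units.ext ((mul_eq_right₀ h0).1 h9))
    (by
      rintro e he _ ⟨z, hz, rfl⟩
      obtain ⟨y, hy, h3⟩ := exists_ld he (Lv_le_Ge (hZ2 e hz)) (T := Ul k γ ⊓ D.comap (MulAut.conj g).toMonoidHom)
        fun r hr t => by
          obtain ⟨s, hs, e2⟩ := hZ1 e z hz _ hr
          obtain rfl := Sum.inr_injective e2
          refine ⟨xs_mem_Ul s.2 (hs.2 ▸ he) t, fun c hc => ?_⟩
          obtain ⟨t', rfl⟩ := hT c hc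
          have h4 := Five.Phi_xs t' s.2 t
          rw [hs.1 t' hc, Units.val_one, one_mul] at h4
          show g * Phi k t' * g⁻¹ * (g * xs k s t * g⁻¹) = g * xs k s t * g⁻¹ * (g * Phi k t' * g⁻¹)
          nth_rewrite 2 [← h4]
          group
      refine ⟨_, (hQ _).2 ⟨Ul_conj (inv_mem hx.1) (Ul_conj (inv_mem hl.1) hy.1), ?_⟩,
        (h3.conj h2 (inv_mem hl.1)).conj_Ul (inv_mem hx) (Lv_le_Ge (levi_Lv (inv_mem hl) (hZ2 e hz)))⟩
      rw [show g' * (x⁻¹ * (l⁻¹ * y * l⁻¹⁻¹) * x⁻¹⁻¹) * g'⁻¹ = g * y * g⁻¹ by rw [hg', e1]; group]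
      exact hy.2)
    (fun t => g'⁻¹ * S.ψ (u t) * g')
    (fun s t e => S.ψ_u_inj (mul_left_cancel (mul_right_cancel e)))
    (fun y => ⟨fun hy => by
        obtain ⟨t, ht⟩ := hU y hy.1.1 hy.1.2 hy.2
        exact ⟨t, by rw [← ht]; group⟩, by
      rintro ⟨t, rfl⟩
      have h3 : g' * (g'⁻¹ * S.ψ (u t) * g') * g'⁻¹ = S.ψ (u t) := by group
      refine ⟨(hQ _).2 ⟨hu' t, by rw [h3]; exact hDA _⟩, ?_⟩
      have h4 := hσg (g'⁻¹ * S.ψ (u t) * g')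
      rw [h3, S.k_σ_ψ] at h4
      nth_rewrite 2 [h4]
      group⟩)
    ⟨1, fun h3 => S.ψ_u_ne one_ne_zero (by
      rw [show S.ψ (u 1) = g' * (g'⁻¹ * S.ψ (u 1) * g') * g'⁻¹ by group, h3, mul_one, mul_inv_cancel])⟩
    (fun d hd t ht h3 t' => by
      have h4 := S.U_le (Q := (Ud k γ d).comap (MulAut.conj g'⁻¹).toMonoidHom) (fun c y hy => by
          have h5 := Pl_conj_Ud hd (inv_mem (hh' c)) (show g'⁻¹ * y * g'⁻¹⁻¹ ∈ Ud k γ d from hy)
          show g'⁻¹ * (S.ψ (h c) * y * (S.ψ (h c))⁻¹) * g'⁻¹⁻¹ ∈ Ud k γ d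
          rwa [show (g'⁻¹ * S.ψ (h c) * g')⁻¹⁻¹ * (g'⁻¹ * y * g'⁻¹⁻¹) * (g'⁻¹ * S.ψ (h c) * g')⁻¹ =
            g'⁻¹ * (S.ψ (h c) * y * (S.ψ (h c))⁻¹) * g'⁻¹⁻¹ by group] at h5) (t := t)
        (by
          rintro rfl
          exact ht (by rw [H943.SL2Rel.u_zero, map_one, mul_one, inv_mul_cancel]))
        (by
          show g'⁻¹ * S.ψ (u t) * g'⁻¹⁻¹ ∈ Ud k γ d
          rwa [inv_inv]) ⟨t', rfl⟩
      have h5 : g'⁻¹ * S.ψ (u t') * g'⁻¹⁻¹ ∈ Ud k γ d := h4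
      rwa [inv_inv] at h5)
  have h5 : ∀ r < 126, Psi C g r → 0 < bf γ (rv r) → bf γ (rv r) = d := fun r hr h5 h6 => h3 _ h6 fun h0 => by
    have h7 := hYZ (bf γ (rv r))
    rw [h0, finrank_bot, eq_comm, Finset.card_eq_zero, Finset.filter_eq_empty_iff] at h7
    exact h7 (Finset.mem_range.2 hr) ⟨h5, rfl⟩
  refine ⟨d, hd, fun r hr h6 => ?_, ?_⟩
  · rcases lt_trichotomy 0 (bf γ (rv r)) with h7 | h7 | h7
    · exact Or.inr (Or.inl (h5 r hr h6 h7))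
    · exact Or.inl h7.symm
    · have h8 := h5 (125 - r) (by omega) (fun t ht => by rw [rtv_neg hr, h6 t ht, inv_one])
        (by rw [rv_neg hr, map_neg]; linarith)
      rw [rv_neg hr, map_neg] at h8
      exact Or.inr (Or.inr (by linarith))
  · rw [hYZ, Nat.card_eq_fintype_card, S.cardK, S.cardF, ← pow_mul] at h4
    exact Nat.pow_right_injective S.prime.two_le h4

end Sit

end Cfsg.Agent.E7P
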